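import Cfsg.Agent.H9.SylowOrth.Orders

/-!
The three standard families.
-/

set_option autoImplicit false

namespace Cfsg.Agent.H9.SylowOrth

open QuadraticMap hiding sq
open Module

variable {F : Type*} [Field F] [Fintype F]

theorem isSquare_neg_one_pow_iff {q : ℕ} (hF : Fintype.card F = q) (hq : Odd q) (m : ℕ) :
    IsSquare ((-1 : F) ^ m) ↔ q ^ m % 4 = 1 := by
  rw [← H5.sqc_eq_one_iff, ← (H5.sqc_neg_one_pow (F := F) hF hq m).1]
  induction m with
  | zero => simp [H5.sqc_one]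
  | succ m ih =>
    rw [pow_succ, pow_succ, H5.sqc_mul (pow_ne_zero _ (neg_ne_zero.mpr one_ne_zero))
      (neg_ne_zero.mpr one_ne_zero)]
    have e : H5.sqc ((-1 : F) ^ m) = H5.sqc (-1 : F) ^ m := by
      clear ih
      induction m with
      | zero => simp [H5.sqc_one]
      | succ m ih => rw [pow_succ, pow_succ, H5.sqc_mul (pow_ne_zero _
          (neg_ne_zero.mpr one_ne_zero)) (neg_ne_zero.mpr one_ne_zero), ih]
    rw [e]

/-- The even dimensional case: the discriminant class selects the number of planes. -/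
theorem even_choice {ι : Type} [Fintype ι] [DecidableEq ι] (Q : QuadraticForm F (ι → F))
    {f : (ι → F) → F} (hf : ⇑Q = f) (hQ : (polarBilin Q).Nondegenerate) {q : ℕ}
    (hF : Fintype.card F = q) (hq : Odd q) {m : ℕ} (hm : 2 ≤ m)
    (hdim : finrank F (ι → F) = 2 * m)
    (hA : ((∃ W : Submodule F (ι → F), (∀ w ∈ W, Q w = 0) ∧ finrank F W = m) ↔ q ^ m % 4 = 1) →
      padicValNat 2 (Nat.card (H4.qIsoms Q)) ≤
        m * padicValNat 2 (q ^ 2 - 1) + padicValNat 2 m.factorial)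
    (hB : ¬ ((∃ W : Submodule F (ι → F), (∀ w ∈ W, Q w = 0) ∧ finrank F W = m) ↔
        q ^ m % 4 = 1) → 3 ≤ m ∧
      padicValNat 2 (Nat.card (H4.qIsoms Q)) ≤
        (m - 1) * padicValNat 2 (q ^ 2 - 1) + padicValNat 2 (m - 1).factorial + 2)
    (P : Sylow 2 (Cfsg.Omega F f)) :
    ∀ x : (P : Subgroup (Cfsg.Omega F f)), x ^ 2 ∈ commutator (P : Subgroup (Cfsg.Omega F f)) := by
  have h2 := H5.two_ne_zero_of_odd_card hF hq
  obtain ⟨α, hα⟩ := H5.exists_not_isSquare (F := F) h2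
  have hn : finrank F (ι → F) = (2 * m - 1) + 1 := by omega
  obtain ⟨b, d, hd, hb, hQb⟩ := H4.exists_orth_basis h2 hQ hn α hα
  have hd0 : d ≠ 0 := by
    rcases hd with rfl | rfl
    exacts [one_ne_zero, fun h => hα (h ▸ IsSquare.zero)]
  have hiff : ((∃ W : Submodule F (ι → F), (∀ w ∈ W, Q w = 0) ∧ finrank F W = m) ↔
      q ^ m % 4 = 1) ↔ d = 1 := by
    have hdet : (H4.gram Q b).det = (2 ^ m) * (2 ^ m) * d := by
      rw [det_gram_diag Q b hb, Finset.prod_mul_distrib, Finset.prod_const, Finset.card_univ,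
        Fintype.card_fin, ← pow_add]
      congr 1
      · congr 1; omega
      · simp [hQb]
    rw [H4.singular_iff_isSquare h2 hQ hdim b, hdet, ← isSquare_neg_one_pow_iff (F := F) hF hq]
    have hne : (2 : F) ^ m * 2 ^ m ≠ 0 := mul_ne_zero (pow_ne_zero _ h2) (pow_ne_zero _ h2)
    have hs : IsSquare ((-1 : F) ^ m * (2 ^ m * 2 ^ m * d)) ↔ IsSquare ((-1 : F) ^ m * d) := by
      constructor
      · rintro ⟨s, hs⟩
        exact ⟨s / 2 ^ m, by field_simp; linear_combination hs⟩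
      · rintro ⟨s, hs⟩
        exact ⟨s * 2 ^ m, by linear_combination (2 ^ m * 2 ^ m) * hs⟩
    rw [hs]
    rcases hd with rfl | rfl
    · simp
    · have hd1 : d ≠ 1 := fun h => hα (h ▸ IsSquare.one)
      simp only [hd1, iff_false]
      intro h
      by_cases h1 : IsSquare ((-1 : F) ^ m)
      · obtain ⟨s, hs⟩ := h.mpr h1
        obtain ⟨t, ht⟩ := h1
        have ht0 : t ≠ 0 := fun h0 => by
          rw [h0, mul_zero] at ht
          exact pow_ne_zero m (neg_ne_zero.mpr one_ne_zero) ht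
        exact hα ⟨s / t, by field_simp; linear_combination hs - d * ht⟩
      · exact h1 (h.mp (H4.isSquare_mul_of_not h1 hα))
  by_cases hd1 : d = 1
  · exact omega_sylow_of_basis Q hf hF hq b d hd0 hb hQb m 0 (by omega) (fun _ => hd1) hm
      (hA (hiff.mpr hd1)) P
  · obtain ⟨h3, hle⟩ := hB (fun h => hd1 (hiff.mp h))
    exact omega_sylow_of_basis Q hf hF hq b d hd0 hb hQb (m - 1) 2 (by omega)
      (fun h => absurd h two_ne_zero) (by omega) hle P

/-- Odd dimension. -/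
theorem omega_odd {q : ℕ} (hF : Fintype.card F = q) (hq : Odd q) {m : ℕ} (hm : 2 ≤ m)
    (P : Sylow 2 (Cfsg.Omega F (Cfsg.quadFormOdd m F))) :
    ∀ x : (P : Subgroup (Cfsg.Omega F (Cfsg.quadFormOdd m F))),
      x ^ 2 ∈ commutator (P : Subgroup (Cfsg.Omega F (Cfsg.quadFormOdd m F))) := by
  have h2 := H5.two_ne_zero_of_odd_card hF hq
  have hq1 : 1 < q := hF ▸ Fintype.one_lt_card
  obtain ⟨α, hα⟩ := H5.exists_not_isSquare (F := F) h2
  have hn : finrank F (Unit ⊕ (Fin m ⊕ Fin m) → F) = (2 * m) + 1 := by simp; omega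
  obtain ⟨b, d, hd, hb, hQb⟩ := H4.exists_orth_basis h2 (H4.qOdd_nondegenerate h2 m) hn α hα
  have hd0 : d ≠ 0 := by
    rcases hd with rfl | rfl
    exacts [one_ne_zero, fun h => hα (h ▸ IsSquare.zero)]
  refine omega_sylow_of_basis (H4.qOdd m F) (H4.coe_qOdd m) hF hq b d hd0 hb hQb m 1 (by omega)
    (fun h => absurd h one_ne_zero) hm ?_ P
  have hc : Nat.card (H4.qIsoms (H4.qOdd m F)) =
      2 * q ^ (m ^ 2) * 1 * ∏ i ∈ Finset.range m, (q ^ (2 * (i + 1)) - 1) := by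
    have h := H4.card_qIsoms_qOdd (F := F) h2 m
    rw [← H4.cast_prod_sub_one, hF] at h
    rw [mul_one]
    exact_mod_cast h
  rw [hc, v2_two_mul hq hq1 one_ne_zero, padicValNat.one]
  omega

/-- Plus type. -/
theorem omega_plus {q : ℕ} (hF : Fintype.card F = q) (hq : Odd q) {m : ℕ} (hm : 1 ≤ m)
    (hm' : Even m ∨ 4 ≤ m)
    (P : Sylow 2 (Cfsg.Omega F (Cfsg.quadFormPlus m F))) :
    ∀ x : (P : Subgroup (Cfsg.Omega F (Cfsg.quadFormPlus m F))),
      x ^ 2 ∈ commutator (P : Subgroup (Cfsg.Omega F (Cfsg.quadFormPlus m F))) := by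
  have hq1 : 1 < q := hF ▸ Fintype.one_lt_card
  have hm2 : 2 ≤ m := by
    rcases hm' with ⟨j, rfl⟩ | h <;> omega
  have hS := H4.qPlus_singular (F := F) m
  have hdim : finrank F (Fin m ⊕ Fin m → F) = 2 * m := by simp; omega
  obtain ⟨n, rfl⟩ : ∃ n, m = n + 1 := ⟨m - 1, by omega⟩
  have hc : Nat.card (H4.qIsoms (H4.qPlus (n + 1) F)) =
      2 * q ^ ((n + 1) * n) * (q ^ (n + 1) - 1) *
        ∏ i ∈ Finset.range n, (q ^ (2 * (i + 1)) - 1) := by
    have h := H4.card_qIsoms_qPlus (F := F) n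
    rw [← H4.cast_prod_sub_one, hF] at h
    zify [Nat.one_le_pow (n + 1) q (by omega)]
    exact_mod_cast h
  have hne : q ^ (n + 1) - 1 ≠ 0 := by
    have := Nat.one_lt_pow (show n + 1 ≠ 0 by omega) hq1
    omega
  refine even_choice (H4.qPlus (n + 1) F) (H4.coe_qPlus _) (H4.qPlus_nondegenerate _) hF hq hm2
    hdim ?_ ?_ P
  · intro h
    have h4 := v2_pow_sub_of_one hq hq1 hm (h.mp hS)
    rw [hc, v2_two_mul hq hq1 hne, v2_succ_factorial hq hq1, h4, add_mul, one_mul]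
    omega
  · intro h
    have h1 : q ^ (n + 1) % 4 ≠ 1 := fun h1 => h (iff_of_true hS h1)
    have h3 : q ^ (n + 1) % 4 = 3 := by
      have := (Nat.odd_iff.mp (hq.pow (n := n + 1)))
      omega
    refine ⟨?_, ?_⟩
    · by_contra hlt
      have : n = 1 := by omega
      subst this
      rw [Nat.odd_iff] at hq
      have : q % 4 = 1 ∨ q % 4 = 3 := by omega
      rcases this with h' | h' <;> simp [Nat.pow_mod, h'] at h3
    · rw [hc, v2_two_mul hq hq1 hne, v2_eq_one hq hq1 (show (q ^ (n + 1) - 1) % 4 = 2 by omega)]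
      simp only [Nat.add_sub_cancel]
      omega

/-- Minus type. -/
theorem omega_minus {q : ℕ} (hF : Fintype.card F = q) (hq : Odd q) {n : ℕ} (hn : 2 ≤ n) {a b : F}
    (hab : ∀ z₁ z₂ : F, z₁ ^ 2 + a * z₁ * z₂ + b * z₂ ^ 2 = 0 → z₁ = 0 ∧ z₂ = 0)
    (P : Sylow 2 (Cfsg.Omega F (Cfsg.quadFormMinus n F a b))) :
    ∀ x : (P : Subgroup (Cfsg.Omega F (Cfsg.quadFormMinus n F a b))),
      x ^ 2 ∈ commutator (P : Subgroup (Cfsg.Omega F (Cfsg.quadFormMinus n F a b))) := by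
  have hq1 : 1 < q := hF ▸ Fintype.one_lt_card
  have hS : ¬ ∃ W : Submodule F ((Fin n ⊕ Fin n) ⊕ Fin 2 → F),
      (∀ w ∈ W, H4.qMinus n F a b w = 0) ∧ finrank F W = n + 1 :=
    fun ⟨W, hW, hr⟩ => H4.qMinus_no_singular hab n W hW hr
  have hdim : finrank F ((Fin n ⊕ Fin n) ⊕ Fin 2 → F) = 2 * (n + 1) := by simp; omega
  have hc : Nat.card (H4.qIsoms (H4.qMinus n F a b)) =
      2 * q ^ ((n + 1) * n) * (q ^ (n + 1) + 1) *
        ∏ i ∈ Finset.range n, (q ^ (2 * (i + 1)) - 1) := by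
    have h := H4.card_qIsoms_qMinus hab (H4.disc_ne_zero hab) n
    rw [← H4.cast_prod_sub_one, hF] at h
    exact_mod_cast h
  have hne : q ^ (n + 1) + 1 ≠ 0 := by omega
  refine even_choice (H4.qMinus n F a b) (H4.coe_qMinus n a b)
    (H4.qMinus_nondegenerate' hab n) hF hq (m := n + 1) (by omega) hdim ?_ ?_ P
  · intro h
    have h3 : q ^ (n + 1) % 4 = 3 := by
      have := (Nat.odd_iff.mp (hq.pow (n := n + 1)))
      have h1 : q ^ (n + 1) % 4 ≠ 1 := fun h1 => hS (h.mpr h1)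
      omega
    have h4 := v2_pow_add_of_three hq hq1 h3
    rw [hc, v2_two_mul hq hq1 hne, v2_succ_factorial hq hq1, h4, add_mul, one_mul]
    omega
  · intro h
    have h1 : q ^ (n + 1) % 4 = 1 := by
      by_contra h1
      exact h (iff_of_false hS h1)
    refine ⟨by omega, ?_⟩
    rw [hc, v2_two_mul hq hq1 hne, v2_eq_one hq hq1 (show (q ^ (n + 1) + 1) % 4 = 2 by omega)]
    simp only [Nat.add_sub_cancel]
    omega

end Cfsg.Agent.H9.SylowOrth
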